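import Cfsg.Agent.H598.EP.RootKill
import Cfsg.Agent.H487.EP.DataSp
import Cfsg.Agent.H778.EP.OmAsm
import Cfsg.Agent.H919.AschWreathForm4

/-!
# S3499: orthogonal groups, tensor powers with two-dimensional factors (helper598)

`omC7_two` is the row `OmC7` of `H778/EP/OmAsm.lean` for two-dimensional factors.
-/

set_option autoImplicit false
set_option linter.unusedSectionVars false

namespace Cfsg.Agent.H598.EP

open Matrix Subgroup Cfsg.Agent.H284 Cfsg.Agent.H419.EP Cfsg.Agent.H487.EP Cfsg.Geo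
open Cfsg.Agent.H919 (pureMat slotMat slotEmb pureMat_apply pureMat_mul pureMat_one framePure frameMat frameMat_mulVec
  exists_frame_coords single_eq_pureVec WreathData C7_quad_even C7_orth_odd)
open Cfsg.Agent.H922 (pureVec pureMat_mulVec dot_pureVec tensorPower_eq eq_gram)
open Cfsg.Agent.H925 (mem_iso_iff Q_add')
open Cfsg.Agent.H778.EP (OmRow omegaGL_le)
open scoped MatrixGroups

section kill

variable {ι : Type} [Fintype ι] [DecidableEq ι] {F : Type*} [Field F] {t m : ℕ}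
variable {e : ι ≃ (Fin t → Fin m)} {P : GL ι F} {u : Fin t → Matrix (Fin m) (Fin m) F}
variable {Q : Type*} [Group Q] [Finite Q] {A : Subgroup Q} {Γ : Subgroup (MulAut Q)}

/-- `kill_root`, assuming only `Â ≤ M` -/
theorem kill_root_le (h : EPT A Γ) {S : Subgroup (GL ι F)} (mo : Model Q S)
    (hA : mo.hat A ≤ tensorWreathSubgroup m t e P) (hu : PN u)
    {x : GL ι F} (hxS : x ∈ S) (hxv : (x : Matrix ι ι F) = 1 + ptH e P u)
    {w : GL ι F} (hwS : w ∈ S) (hwM : w ∈ tensorWreathSubgroup m t e P) {μ : F} (hμ : μ ≠ 1)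
    (hw : Cfsg.Agent.H487.EP.cjm w (ptH e P u) = μ • ptH e P u) : False := by
  refine kill_root h mo (Cfsg.Agent.H458.EP.hat_eq mo h.max hA ?_) hu hxS hxv hwS hwM hμ hw
  intro hS
  have h1 := root_types hu hxv hwM (hS (S.mul_mem (S.mul_mem (S.inv_mem hxS) hwS) hxS))
  rw [hw] at h1
  apply hμ
  have h2 : (μ - 1) • ptH e P u = 0 := by rw [sub_smul, one_smul, h1, sub_self]
  have := (smul_eq_zero.1 h2).resolve_right hu.neN
  linear_combination this

end kill

section str

variable {ι : Type} [Fintype ι] [DecidableEq ι] {F : Type} [Field F] [Fintype F] {t m : ℕ}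
variable {e : ι ≃ (Fin t → Fin m)} {P : GL ι F} {Qf : (ι → F) → F} {G : Matrix (Fin m) (Fin m) F} {c : F}

theorem ptH_mulVec (v : Fin t → Matrix (Fin m) (Fin m) F) (x : (Fin t → Fin m) → F) :
    ptH e P v *ᵥ ((P : Matrix ι ι F) *ᵥ (x ∘ e)) = (P : Matrix ι ι F) *ᵥ ((pureMat v *ᵥ x) ∘ e) :=
  frameMat_mulVec e P (pureMat v) x

theorem ptH_pure (v : Fin t → Matrix (Fin m) (Fin m) F) (w : Fin t → (Fin m → F)) :
    ptH e P v *ᵥ framePure e P w = framePure e P (fun k => v k *ᵥ w k) := by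
  rw [framePure, ptH_mulVec, pureMat_mulVec, framePure]

/-- the polar form in the frame -/
def FS (Qf : (ι → F) → F) (e : ι ≃ (Fin t → Fin m)) (P : GL ι F) (G : Matrix (Fin m) (Fin m) F) (c : F) : Prop :=
  ∀ x y : (Fin t → Fin m) → F, QuadraticMap.polar Qf ((P : Matrix ι ι F) *ᵥ (x ∘ e)) ((P : Matrix ι ι F) *ᵥ (y ∘ e)) =
    c * (x ⬝ᵥ (pureMat (fun _ => G) *ᵥ y))

theorem pt_adj (hs : FS Qf e P G c) {a a' : Fin t → Matrix (Fin m) (Fin m) F} (h : ∀ k, (a k)ᵀ * G = G * a' k)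
    (v w : ι → F) : QuadraticMap.polar Qf (ptH e P a *ᵥ v) w = QuadraticMap.polar Qf v (ptH e P a' *ᵥ w) := by
  obtain ⟨x, rfl⟩ := exists_frame_coords e P v
  obtain ⟨y, rfl⟩ := exists_frame_coords e P w
  rw [ptH_mulVec, ptH_mulVec, hs, hs]
  congr 1
  have h1 : (pureMat a)ᵀ = pureMat (fun i => (a i)ᵀ) := rfl
  rw [← Matrix.vecMul_transpose, ← Matrix.dotProduct_mulVec, Matrix.mulVec_mulVec, Matrix.mulVec_mulVec, h1,
    pureMat_mul, pureMat_mul]
  congr 3
  funext k
  exact h k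

theorem span_pure (e : ι ≃ (Fin t → Fin m)) (P : GL ι F) : Submodule.span F (Set.range (framePure e P)) = ⊤ := by
  rw [eq_top_iff]
  intro v _
  obtain ⟨x, rfl⟩ := exists_frame_coords e P v
  have h1 : x = ∑ a, x a • (Pi.single a (1 : F) : (Fin t → Fin m) → F) := by
    funext b
    rw [Finset.sum_apply, Finset.sum_eq_single b]
    · simp
    · intro a _ ha
      simp [Ne.symm ha]
    · intro h; exact absurd (Finset.mem_univ _) h
  have h2 : (P : Matrix ι ι F) *ᵥ (x ∘ e) = ∑ a, x a • framePure e P (fun i => Pi.single (a i) 1) := by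
    have h3 : x ∘ e = ∑ a, x a • (pureVec (fun i => Pi.single (a i) (1 : F)) ∘ e) := by
      conv_lhs => rw [h1]
      funext i
      simp only [Function.comp, Finset.sum_apply, Pi.smul_apply, single_eq_pureVec]
    rw [h3, Matrix.mulVec_sum]
    simp only [Matrix.mulVec_smul, framePure]
  rw [h2]
  exact Submodule.sum_mem _ fun a _ => Submodule.smul_mem _ _ (Submodule.subset_span ⟨_, rfl⟩)

/-- the slots on invertible matrices -/
noncomputable def slG (e : ι ≃ (Fin t → Fin m)) (P : GL ι F) (k : Fin t) : GL (Fin m) F →* GL ι F :=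
  Units.map (sl e P k : Matrix (Fin m) (Fin m) F →* Matrix ι ι F)

theorem slG_val (k : Fin t) (g : GL (Fin m) F) : (slG e P k g : Matrix ι ι F) = sl e P k (g : Matrix (Fin m) (Fin m) F) := rfl

theorem slG_inv (k : Fin t) (g : GL (Fin m) F) :
    (((slG e P k g)⁻¹ : GL ι F) : Matrix ι ι F) = sl e P k ((g⁻¹ : GL (Fin m) F) : Matrix (Fin m) (Fin m) F) := rfl

theorem slG_cjm (k : Fin t) (g : GL (Fin m) F) (a : Matrix (Fin m) (Fin m) F) {R : Matrix ι ι F}
    (hR : ∀ w, R * sl e P k w = sl e P k w * R) :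
    Cfsg.Agent.H487.EP.cjm (slG e P k g) (sl e P k a * R) = sl e P k (Cfsg.Agent.H487.EP.cjm g a) * R := by
  rw [Cfsg.Agent.H487.EP.cjm, slG_val, slG_inv, mul_assoc, mul_assoc, hR, ← mul_assoc, ← mul_assoc, ← map_mul, ← map_mul,
    Cfsg.Agent.H487.EP.cjm]

theorem slot_iso (hQ : IsNondegenerateQuadraticForm Qf) (hs : FS Qf e P G c)
    (hq : (2 : F) ≠ 0 ∨ ∀ w, Qf (framePure e P w) = 0) (k : Fin t) {g : GL (Fin m) F} (hg : g ∈ IsoG G) :
    slG e P k g ∈ isometryGroup F Qf := by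
  have hpol : ∀ v w, QuadraticMap.polar Qf ((slG e P k g : Matrix ι ι F) *ᵥ v) ((slG e P k g : Matrix ι ι F) *ᵥ w) =
      QuadraticMap.polar Qf v w := by
    intro v w
    rw [slG_val, ← ptH_single, pt_adj hs (a' := Pi.mulSingle k ((g⁻¹ : GL (Fin m) F) : Matrix (Fin m) (Fin m) F)) (by
      intro j
      by_cases hj : j = k
      · subst hj
        rw [Pi.mulSingle_eq_same, Pi.mulSingle_eq_same]
        exact isoG_adj hg
      · rw [Pi.mulSingle_eq_of_ne hj, Pi.mulSingle_eq_of_ne hj, Matrix.transpose_one, one_mul, mul_one]),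
      Matrix.mulVec_mulVec, ← map_mul, ← Pi.mulSingle_mul, Units.inv_mul, Pi.mulSingle_one, map_one, Matrix.one_mulVec]
  rcases hq with h2 | h0
  · exact iso_of_polar hQ h2 hpol
  · refine iso_of_span hQ hpol (span_pure e P) ?_ ?_
    · rintro _ ⟨w, rfl⟩
      exact h0 w
    · rintro _ ⟨w, rfl⟩
      rw [slG_val, ← ptH_single, ptH_pure]
      exact h0 _

theorem slot_omega (hQ : IsNondegenerateQuadraticForm Qf) (hs : FS Qf e P G c)
    (hq : (2 : F) ≠ 0 ∨ ∀ w, Qf (framePure e P w) = 0) (k : Fin t) {g : GL (Fin m) F} (hg : g ∈ KG G) :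
    slG e P k g ∈ omegaGL Qf := by
  apply comm_le_omega
  have h1 : (KG G).map (slG e P k) ≤ ⁅isometryGroup F Qf, isometryGroup F Qf⁆ := by
    rw [KG, Subgroup.map_commutator]
    apply Subgroup.commutator_mono <;>
    · rintro _ ⟨x, hx, rfl⟩
      exact slot_iso hQ hs hq k hx
  exact h1 ⟨g, hg, rfl⟩

/-- the elements `1 + b N` are isometries -/
theorem root_iso (hQ : IsNondegenerateQuadraticForm Qf) (hs : FS Qf e P G c) {u : Fin t → Matrix (Fin m) (Fin m) F}
    (hu : PN u) (hN : ∀ v w, QuadraticMap.polar Qf (ptH e P u *ᵥ v) w = -QuadraticMap.polar Qf v (ptH e P u *ᵥ w))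
    (hq : (2 : F) ≠ 0 ∨ ((∀ w, Qf (framePure e P w) = 0) ∧ (∃ k, u k = 1) ∧ ∀ z : Fin m → F, z ⬝ᵥ (G *ᵥ z) = 0))
    {b : F} {x : GL ι F} (hx : (x : Matrix ι ι F) = 1 + b • ptH e P u) : x ∈ isometryGroup F Qf := by
  have hB := hQ.polar_bilinear
  have hpol : ∀ v w, QuadraticMap.polar Qf ((x : Matrix ι ι F) *ᵥ v) ((x : Matrix ι ι F) *ᵥ w) =
      QuadraticMap.polar Qf v w := by
    intro v w
    have h1 : QuadraticMap.polar Qf (ptH e P u *ᵥ v) (ptH e P u *ᵥ w) = 0 := by
      rw [hN, Matrix.mulVec_mulVec, hu.sqN, Matrix.zero_mulVec]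
      have := hB.smul_right 0 v 0
      rw [zero_smul, zero_mul] at this
      rw [this, neg_zero]
    rw [hx, Matrix.add_mulVec, Matrix.add_mulVec, Matrix.one_mulVec, Matrix.one_mulVec, Matrix.smul_mulVec,
      Matrix.smul_mulVec, hB.add_left, hB.add_right, hB.add_right, hB.smul_left, hB.smul_right, hB.smul_left,
      hB.smul_right, h1, hN]
    ring
  rcases hq with h2 | ⟨h0, ⟨k, hk⟩, hG⟩
  · exact iso_of_polar hQ h2 hpol
  · refine iso_of_span hQ hpol (span_pure e P) ?_ ?_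
    · rintro _ ⟨w, rfl⟩
      exact h0 w
    · rintro _ ⟨w, rfl⟩
      have h1 : QuadraticMap.polar Qf (framePure e P w) (b • (ptH e P u *ᵥ framePure e P w)) = 0 := by
        rw [hB.smul_right, ptH_pure, framePure, framePure, hs, pureMat_mulVec, dot_pureVec,
          Finset.prod_eq_zero (Finset.mem_univ k) (by
            change w k ⬝ᵥ (G *ᵥ (u k *ᵥ w k)) = 0
            rw [hk, Matrix.one_mulVec, hG]), mul_zero, mul_zero]
      rw [hx, Matrix.add_mulVec, Matrix.one_mulVec, Matrix.smul_mulVec, Q_add' hQ, h0, h1, hQ.smul, ptH_pure, h0]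
      ring

end str

/-! ### two-dimensional factors -/

section two

variable {F : Type} [Field F] [Fintype F]

theorem E12_ne_zero : E12 F ≠ 0 := by
  intro h
  have := congrFun (congrFun h 0) 1
  simp [E12] at this

theorem E12_ne_one : E12 F ≠ 1 := by
  intro h
  have := congrFun (congrFun h 0) 0
  simp [E12] at this

theorem one_ne2 : (1 : Matrix (Fin 2) (Fin 2) F) ≠ 0 := by
  intro h
  have := congrFun (congrFun h 0) 0
  simp at this

theorem E12_adj (g : F) : (E12 F)ᵀ * (g • J2 F) = (g • J2 F) * (-E12 F) := by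
  rw [E12, J2]
  ext i j
  fin_cases i <;> fin_cases j <;> simp [Matrix.mul_apply, Fin.sum_univ_two]

theorem E12_cjm {s : F} (hs0 : s ≠ 0) : Cfsg.Agent.H487.EP.cjm (mk2 s 0 0 s⁻¹ (by rw [mul_inv_cancel₀ hs0]; ring)) (E12 F) =
    s ^ 2 • E12 F := by
  rw [Cfsg.Agent.H487.EP.cjm, mk2_val, mk2_inv, E12]
  ext i j
  fin_cases i <;> fin_cases j <;> simp [Matrix.mul_apply, Fin.sum_univ_two]
  ring

theorem KG_smul (g : F) {a : GL (Fin 2) F} (ha : a ∈ KG (J2 F)) : a ∈ KG (g • J2 F) := by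
  have h1 : IsoG (J2 F) ≤ IsoG (g • J2 F) := by
    intro x hx
    rw [mem_isoG] at hx ⊢
    rw [Matrix.mul_smul, Matrix.smul_mul, hx]
  exact Subgroup.commutator_mono h1 h1 ha

/-- the Gram matrix of a symplectic form on the plane -/
theorem gram_two {f₁ : (Fin 2 → F) → (Fin 2 → F) → F} (hf : IsSymplecticForm f₁) :
    gramMatrix f₁ = (gramMatrix f₁ 0 1) • J2 F := by
  ext i j
  have h1 : gramMatrix f₁ 1 0 = -gramMatrix f₁ 0 1 := hf.skew _ _
  have h2 : ∀ a, gramMatrix f₁ a a = 0 := fun a => hf.alternating _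
  fin_cases i <;> fin_cases j <;> simp [J2, h1, h2]

/-- the tensor `N` -/
noncomputable def uK {t : ℕ} (F : Type) [Field F] (K : Finset (Fin t)) : Fin t → Matrix (Fin 2) (Fin 2) F :=
  fun k => if k ∈ K then E12 F else 1

theorem uK_mem {t : ℕ} {K : Finset (Fin t)} {k : Fin t} (hk : k ∈ K) : uK F K k = E12 F := if_pos hk
theorem uK_not_mem {t : ℕ} {K : Finset (Fin t)} {k : Fin t} (hk : k ∉ K) : uK F K k = 1 := if_neg hk

theorem pn_uK {t : ℕ} {K : Finset (Fin t)} (hK : 2 ≤ K.card) : PN (uK F K) where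
  sq k hk := by
    by_cases h : k ∈ K
    · rw [uK_mem h, E12_sq]
    · exact absurd (uK_not_mem h) hk
  ne k := by
    by_cases h : k ∈ K
    · rw [uK_mem h]; exact E12_ne_zero
    · rw [uK_not_mem h]; exact one_ne2
  two := by
    obtain ⟨a, ha, b, hb, hab⟩ := Finset.one_lt_card.1 hK
    exact ⟨a, b, hab, by rw [uK_mem ha]; exact E12_ne_one, by rw [uK_mem hb]; exact E12_ne_one⟩

variable {ι : Type} [Fintype ι] [DecidableEq ι] {t : ℕ} {e : ι ≃ (Fin t → Fin 2)} {P : GL ι F} {Qf : (ι → F) → F}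

theorem uK_adj {g c : F} (hs : FS Qf e P (g • J2 F) c) {K : Finset (Fin t)} (hQ : IsNondegenerateQuadraticForm Qf)
    (hK : ((-1 : F)) ^ K.card = -1) (v w : ι → F) :
    QuadraticMap.polar Qf (ptH e P (uK F K) *ᵥ v) w = -QuadraticMap.polar Qf v (ptH e P (uK F K) *ᵥ w) := by
  have hB := hQ.polar_bilinear
  let a' : Fin t → Matrix (Fin 2) (Fin 2) F := fun k => (if k ∈ K then (-1 : F) else 1) • uK F K k
  have h1 : ptH e P a' = (-1 : F) • ptH e P (uK F K) := by
    have h2 : pureMat a' = (-1 : F) • pureMat (uK F K) := by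
      ext p q
      rw [Matrix.smul_apply, pureMat_apply, pureMat_apply]
      simp only [a', Matrix.smul_apply, smul_eq_mul, Finset.prod_mul_distrib]
      congr 1
      rw [Finset.prod_ite, Finset.prod_const, Finset.prod_const_one, mul_one, ← hK]
      congr 1
      simp
    rw [ptH_apply, h2, map_smul, ptH_apply]
  rw [pt_adj hs (a' := a') (by
    intro k
    by_cases hk : k ∈ K
    · simp only [a', if_pos hk]
      rw [uK_mem hk, E12_adj, neg_one_smul]
    · simp only [a', if_neg hk]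
      rw [uK_not_mem hk, one_smul, Matrix.transpose_one, one_mul, mul_one]), h1, Matrix.smul_mulVec, hB.smul_right]
  ring

variable {Q : Type} [Group Q] [Finite Q] {A : Subgroup Q} {Γ : Subgroup (MulAut Q)}

theorem om_final (h : EPT A Γ) (mo : Model Q (omegaGL Qf)) (hQ : IsNondegenerateQuadraticForm Qf)
    (hle : mo.hat A ≤ tensorWreathSubgroup 2 t e P) {f₁ : (Fin 2 → F) → (Fin 2 → F) → F} (hf₁ : IsSymplecticForm f₁)
    (hstr : IsTensorPowerFormStructure id (QuadraticMap.polar Qf) f₁ e P) {K : Finset (Fin t)} (hK2 : 2 ≤ K.card)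
    (hK1 : ((-1 : F)) ^ K.card = -1) (hq : (2 : F) ≠ 0 ∨ ((∀ w, Qf (framePure e P w) = 0) ∧ ∃ k, k ∉ K))
    {s : F} (hs0 : s ≠ 0) (hs : s ^ 2 ≠ 1) : False := by
  obtain ⟨c, -, hcf⟩ := hstr
  have hFS : FS Qf e P (gramMatrix f₁) c := fun x y => tensorPower_eq hcf rfl x y
  have hgz : ∀ z : Fin 2 → F, z ⬝ᵥ (gramMatrix f₁ *ᵥ z) = 0 := by
    intro z
    rw [← eq_gram hf₁.bilinear, hf₁.alternating]
  rw [gram_two hf₁] at hFS hgz
  set g : F := gramMatrix f₁ 0 1 with hg
  have hu : PN (uK F K) := pn_uK hK2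
  set N := ptH e P (uK F K) with hN
  have hNN : N * N = 0 := hu.sqN
  have hadj := uK_adj (K := K) hFS hQ hK1
  obtain ⟨k0, hk0, k1, hk1, h01⟩ := Finset.one_lt_card.1 hK2
  have hdet : s * s⁻¹ - 0 * 0 = 1 := by rw [mul_inv_cancel₀ hs0]; ring
  set d : GL (Fin 2) F := mk2 s 0 0 s⁻¹ hdet with hd
  set w : GL ι F := slG e P k0 d with hw
  have hq' : (2 : F) ≠ 0 ∨ ∀ w, Qf (framePure e P w) = 0 := by
    rcases hq with h2 | h2
    · exact Or.inl h2
    · exact Or.inr h2.1
  have hdJ : d ∈ KG (J2 F) := diag_mem hs0 hs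
  have hwS : w ∈ omegaGL Qf := slot_omega hQ hFS hq' k0 (KG_smul g hdJ)
  have hwI : w ∈ isometryGroup F Qf := omegaGL_le Qf hwS
  have hwM : w ∈ tensorWreathSubgroup 2 t e P :=
    pure_mem h01 d 1 (by rw [hw, slG_val, Units.val_one, map_one, mul_one])
  have hwN : Cfsg.Agent.H487.EP.cjm w N = s ^ 2 • N := by
    have h1 : N = sl e P k0 (E12 F) * ptH e P (Function.update (uK F K) k0 1) := by
      rw [hN, ptH_split _ k0, uK_mem hk0]
    rw [h1, hw, slG_cjm k0 d _ (PN.comR k0), hd, E12_cjm hs0, map_smul, Matrix.smul_mul]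
  have hs1 : s ^ 2 - 1 ≠ 0 := sub_ne_zero.2 hs
  set b : F := (s ^ 2 - 1)⁻¹ with hb
  let y : GL ι F := ⟨1 + b • N, 1 - b • N, by
    rw [add_mul, mul_sub, mul_sub, one_mul, one_mul, mul_one, Matrix.smul_mul, Matrix.mul_smul, hNN, smul_zero, smul_zero]
    abel, by
    rw [sub_mul, mul_add, mul_add, one_mul, one_mul, mul_one, Matrix.smul_mul, Matrix.mul_smul, hNN, smul_zero, smul_zero]
    abel⟩
  have hyv : (y : Matrix ι ι F) = 1 + b • N := rfl
  have hyi : ((y⁻¹ : GL ι F) : Matrix ι ι F) = 1 - b • N := rfl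
  have hyI : y ∈ isometryGroup F Qf := by
    refine root_iso hQ hFS hu hadj ?_ hyv
    rcases hq with h2 | ⟨h2, k, hk⟩
    · exact Or.inl h2
    · exact Or.inr ⟨h2, ⟨k, uK_not_mem hk⟩, hgz⟩
  have hxS : w * y * w⁻¹ * y⁻¹ ∈ omegaGL Qf := comm_le_omega Qf (Subgroup.commutator_mem_commutator hwI hyI)
  have hxv : ((w * y * w⁻¹ * y⁻¹ : GL ι F) : Matrix ι ι F) = 1 + N := by
    have h1 : ((w * y * w⁻¹ : GL ι F) : Matrix ι ι F) = Cfsg.Agent.H487.EP.cjm w (y : Matrix ι ι F) := rfl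
    have hbs : b * s ^ 2 - b = 1 := by rw [hb]; field_simp
    rw [Units.val_mul, h1, hyv, hyi, cjm_add, cjm_one, cjm_smul, hwN, smul_smul, add_mul, mul_sub, mul_sub, one_mul, one_mul,
      mul_one, Matrix.smul_mul, Matrix.mul_smul, hNN, smul_zero, smul_zero, sub_zero]
    have h2 : (b * s ^ 2) • N = b • N + N := by
      have : b * s ^ 2 = b + 1 := by linear_combination hbs
      rw [this, add_smul, one_smul]
    rw [h2]
    abel
  exact kill_root_le h mo hle hu hxS hxv hwS hwM hs hwN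

end two

/-- **[Om-C7], two-dimensional factors** -/
theorem omC7_two : OmRow fun F _ _ ι _ _ _ H =>
    Geo.ActsIrreducibly (Geo.matrixSet H) ∧ ∃ (t : ℕ) (e : ι ≃ (Fin t → Fin 2)) (P : GL ι F)
      (E : Fin t → Subgroup (GL ι F)), 2 ^ t = Fintype.card ι ∧ WreathData H 2 t e P E := by
  rintro Q _ _ _ A Γ h F _ _ ι _ _ Qf mo h7 hQ ⟨-, t, e, P, E, ht, W⟩
  have ht3 : 3 ≤ t := by
    by_contra hcon
    have h1 : 2 ^ t ≤ 2 ^ 2 := Nat.pow_le_pow_right (by norm_num) (by omega)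
    omega
  have hF : 4 ≤ Fintype.card F := by
    by_contra hcon
    exact W.not_two_small (by omega)
  obtain ⟨s, hs0, hs⟩ : ∃ s : F, s ≠ 0 ∧ s ^ 2 ≠ 1 := by
    classical
    by_contra hcon
    push Not at hcon
    have h1 : (Finset.univ : Finset F) ⊆ {0, 1, -1} := by
      intro s _
      by_cases h0 : s = 0
      · simp [h0]
      · have h2 : (s - 1) * (s + 1) = 0 := by linear_combination hcon s h0
        rcases mul_eq_zero.1 h2 with h3 | h3
        · have : s = 1 := by linear_combination h3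
          simp [this]
        · have : s = -1 := by linear_combination h3
          simp [this]
    have h2 := Finset.card_le_card h1
    rw [Finset.card_univ] at h2
    have h3 : Finset.card ({0, 1, -1} : Finset F) ≤ 3 := Finset.card_le_three
    omega
  have hH : ∀ g ∈ mo.hat A, ∀ v, Qf ((g : Matrix ι ι F) *ᵥ v) = Qf v := fun g hg =>
    mem_iso_iff.1 (omegaGL_le Qf (mo.hat_le A hg))
  by_cases h2 : (2 : F) = 0
  · obtain ⟨P', f₁, W', hf₁, hstr, hpure⟩ := C7_quad_even hQ h2 hH W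
    let K : Finset (Fin t) := {⟨0, by omega⟩, ⟨1, by omega⟩}
    have hK : K.card = 2 := Finset.card_pair (by simp [Fin.ext_iff])
    refine om_final h mo hQ W'.wreath hf₁ hstr (K := K) hK.ge ?_ (Or.inr ⟨hpure, ⟨2, by omega⟩, ?_⟩) hs0 hs
    · rw [hK]
      linear_combination h2
    · simp [K, Fin.ext_iff]
  · have hsym : IsSymmetricForm (QuadraticMap.polar Qf) :=
      ⟨hQ.polar_bilinear, fun u v => QuadraticMap.polar_comm Qf u v, hQ.nondegenerate⟩
    have hHp : ∀ g ∈ mo.hat A, ∀ u v, QuadraticMap.polar Qf ((g : Matrix ι ι F) *ᵥ u) ((g : Matrix ι ι F) *ᵥ v) =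
        QuadraticMap.polar Qf u v := by
      intro g hg u v
      simp only [QuadraticMap.polar, ← Matrix.mulVec_add, hH g hg]
    obtain ⟨P', f₁, W', hf₁, hstr, -, hinv⟩ := C7_orth_odd hsym h2 hHp W
    have hbil : IsBilinearForm f₁ := by
      rcases hf₁ with h | h
      · exact h.bilinear
      · exact h.1.bilinear
    have halt := W'.two_alternating ⟨0, by omega⟩ hbil (hinv _)
    obtain ⟨hf₁, hev⟩ : IsSymplecticForm f₁ ∧ Even t := by
      rcases hf₁ with h | h
      · exfalso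
        have h3 : ∀ x y, f₁ x y = 0 := by
          intro x y
          have h4 := halt (x + y)
          rw [hbil.add_left, hbil.add_right, hbil.add_right, halt, halt, h.symm y x] at h4
          have h5 : (2 : F) * f₁ x y = 0 := by linear_combination h4
          exact (mul_eq_zero.1 h5).resolve_left h2
        obtain ⟨-, y, hy⟩ := h.nondegenerate (Pi.single 0 1) (by
          intro h0
          have := congrFun h0 0
          simp at this)
        exact hy (h3 _ _)
      · exact h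
    have ht4 : 4 ≤ t := by
      rcases Nat.lt_or_ge t 4 with h | h
      · have : t = 3 := by omega
        rw [this] at hev
        exact absurd hev (by decide)
      · exact h
    let K : Finset (Fin t) := {⟨0, by omega⟩, ⟨1, by omega⟩, ⟨2, by omega⟩}
    have hK : K.card = 3 := Finset.card_eq_three.2 ⟨_, _, _, by simp [Fin.ext_iff], by simp [Fin.ext_iff],
      by simp [Fin.ext_iff], rfl⟩
    refine om_final h mo hQ W'.wreath hf₁ hstr (K := K) (by omega) ?_ (Or.inl h2) hs0 hs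
    rw [hK]
    ring

end Cfsg.Agent.H598.EP
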