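import Cfsg.Agent.H487.EP.Wreath3

/-!
# S3499: a kill for stabilisers of tensor decompositions with equal factors by elements `1 + N` (helper598)

`N = ⊗ u k` is a pure tensor, each `u k` is either `1` or of square zero, at least two of them are not `1`. If `x = 1 + N`
lies in `S` and `w` in `M ∩ S` satisfies `w N w⁻¹ = μ N`, `μ ≠ 1`, then the stabiliser `M ∩ S` is not the point stabiliser of
an extremely primitive group. (This covers the case of two-dimensional factors.)
-/

set_option autoImplicit false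
set_option linter.unusedSectionVars false

namespace Cfsg.Agent.H598.EP

open Matrix Subgroup Cfsg.Agent.H284 Cfsg.Agent.H419.EP Cfsg.Agent.H487.EP Cfsg.Geo
open Cfsg.Agent.H919 (pureMat slotMat slotEmb pureMat_apply pureMat_mul pureMat_one)
open scoped MatrixGroups

variable {ι : Type} [Fintype ι] [DecidableEq ι] {F : Type*} [Field F] {t m : ℕ}

/-- pure tensors -/
noncomputable def ptH (e : ι ≃ (Fin t → Fin m)) (P : GL ι F) :
    (Fin t → Matrix (Fin m) (Fin m) F) →* Matrix ι ι F where
  toFun v := frA e P (pureMat v)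
  map_one' := by
    change frA e P (pureMat (fun _ => 1)) = 1
    rw [pureMat_one, map_one]
  map_mul' v w := by
    rw [← map_mul, pureMat_mul]
    rfl

variable {e : ι ≃ (Fin t → Fin m)} {P : GL ι F}

theorem ptH_apply (v : Fin t → Matrix (Fin m) (Fin m) F) : ptH e P v = frA e P (pureMat v) := rfl

theorem ptH_single (k : Fin t) (a : Matrix (Fin m) (Fin m) F) : ptH e P (Pi.mulSingle k a) = sl e P k a := rfl

/-- conjugation as a homomorphism -/
def cjmH {κ : Type} [Fintype κ] [DecidableEq κ] (a : GL κ F) : Matrix κ κ F →* Matrix κ κ F where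
  toFun := cjm a
  map_one' := cjm_one a
  map_mul' := cjm_mul a

theorem cjm_ptH {g : GL ι F} {π : Equiv.Perm (Fin t)} {a : Fin t → GL (Fin m) F}
    (h : ∀ k u, cjm g (sl e P k u) = sl e P (π k) (cjm (a k) u)) (v : Fin t → Matrix (Fin m) (Fin m) F) :
    cjm g (ptH e P v) = ptH e P (fun j => cjm (a (π.symm j)) (v (π.symm j))) := by
  let f : (Fin t → Matrix (Fin m) (Fin m) F) →* (Fin t → Matrix (Fin m) (Fin m) F) :=
    { toFun := fun v j => cjm (a (π.symm j)) (v (π.symm j))
      map_one' := by funext j; exact cjm_one _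
      map_mul' := fun v w => by funext j; exact cjm_mul _ _ _ }
  have key : (cjmH g).comp (ptH e P) = (ptH e P).comp f := by
    apply MonoidHom.pi_ext
    intro k x
    change cjm g (ptH e P (Pi.mulSingle k x)) = ptH e P (fun j => cjm (a (π.symm j)) ((Pi.mulSingle k x : Fin t → _) (π.symm j)))
    rw [ptH_single, h, ← ptH_single]
    congr 1
    funext j
    by_cases hj : j = π k
    · subst hj
      rw [Pi.mulSingle_eq_same, Equiv.symm_apply_apply, Pi.mulSingle_eq_same]
    · have hj' : π.symm j ≠ k := fun h' => hj (by rw [← h', Equiv.apply_symm_apply])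
      rw [Pi.mulSingle_eq_of_ne hj, Pi.mulSingle_eq_of_ne hj', cjm_one]
  exact DFunLike.congr_fun key v

theorem ptH_comm {v : Fin t → Matrix (Fin m) (Fin m) F} {k : Fin t} (hv : v k = 1) (u : Matrix (Fin m) (Fin m) F) :
    ptH e P v * sl e P k u = sl e P k u * ptH e P v := by
  rw [← ptH_single, ← map_mul, ← map_mul]
  congr 1
  funext j
  rw [Pi.mul_apply, Pi.mul_apply]
  by_cases h : j = k
  · subst h
    rw [hv, one_mul, mul_one]
  · rw [Pi.mulSingle_eq_of_ne h, one_mul, mul_one]

theorem ptH_split (v : Fin t → Matrix (Fin m) (Fin m) F) (k : Fin t) :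
    ptH e P v = sl e P k (v k) * ptH e P (Function.update v k 1) := by
  rw [← ptH_single, ← map_mul]
  congr 1
  funext j
  rw [Pi.mul_apply]
  by_cases h : j = k
  · subst h
    rw [Pi.mulSingle_eq_same, Function.update_self, mul_one]
  · rw [Pi.mulSingle_eq_of_ne h, Function.update_of_ne h, one_mul]

theorem ptH_zero {v : Fin t → Matrix (Fin m) (Fin m) F} {k : Fin t} (hv : v k = 0) : ptH e P v = 0 := by
  rw [ptH_split v k, hv, map_zero, zero_mul]

theorem ptH_ne_zero {v : Fin t → Matrix (Fin m) (Fin m) F} (hv : ∀ k, v k ≠ 0) : ptH e P v ≠ 0 := by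
  intro h
  have h1 : pureMat v = 0 := frA_injective e P (by rw [map_zero]; exact h)
  have h2 : ∀ k, ∃ i j, v k i j ≠ 0 := by
    intro k
    by_contra hc
    push Not at hc
    exact hv k (by ext i j; exact hc i j)
  choose i j hij using h2
  have h3 := congrFun (congrFun h1 i) j
  rw [pureMat_apply] at h3
  exact (Finset.prod_ne_zero_iff.2 fun k _ => hij k) h3

/-! ### slot functionals -/

/-- contraction of the slot `k` by a linear functional -/
noncomputable def Phi (e : ι ≃ (Fin t → Fin m)) (P : GL ι F) (k : Fin t) (lam : Matrix (Fin m) (Fin m) F →ₗ[F] F) :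
    Matrix ι ι F →ₗ[F] Matrix ι ι F :=
  ∑ i, ∑ j, lam (Matrix.single i j 1) • ∑ p, (LinearMap.mulLeft F (sl e P k (Matrix.single p i 1))).comp
    (LinearMap.mulRight F (sl e P k (Matrix.single j p 1)))

theorem Phi_apply (k : Fin t) (lam : Matrix (Fin m) (Fin m) F →ₗ[F] F) (X : Matrix ι ι F) :
    Phi e P k lam X = ∑ i, ∑ j, lam (Matrix.single i j 1) •
      ∑ p, sl e P k (Matrix.single p i 1) * (X * sl e P k (Matrix.single j p 1)) := by
  simp only [Phi, LinearMap.sum_apply, LinearMap.smul_apply, LinearMap.comp_apply, LinearMap.mulLeft_apply,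
    LinearMap.mulRight_apply]

theorem Phi_sl (k : Fin t) (lam : Matrix (Fin m) (Fin m) F →ₗ[F] F) (u : Matrix (Fin m) (Fin m) F) {R : Matrix ι ι F}
    (hR : ∀ w, R * sl e P k w = sl e P k w * R) : Phi e P k lam (sl e P k u * R) = lam u • R := by
  have h1 : ∀ i j : Fin m, ∑ p, sl e P k (Matrix.single p i 1) * ((sl e P k u * R) * sl e P k (Matrix.single j p 1)) =
      u i j • R := by
    intro i j
    have h2 : ∀ p : Fin m, sl e P k (Matrix.single p i 1) * ((sl e P k u * R) * sl e P k (Matrix.single j p 1)) =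
        sl e P k (u i j • Matrix.single p p 1) * R := by
      intro p
      rw [mul_assoc, hR, ← mul_assoc, ← mul_assoc, ← map_mul, ← map_mul]
      congr 2
      ext a b
      by_cases ha : a = p
      · subst ha
        by_cases hb : b = a
        · subst hb
          simp [Matrix.single_mul_apply_same]
        · rw [Matrix.mul_single_apply_of_ne _ _ _ _ _ hb]
          simp [Ne.symm hb]
      · simp [Matrix.mul_apply, Matrix.single_apply, Ne.symm ha]
    rw [Finset.sum_congr rfl fun p _ => h2 p, ← Finset.sum_mul, ← map_sum, ← Finset.smul_sum]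
    have h3 : ∑ p : Fin m, Matrix.single p p (1 : F) = 1 := by
      ext a b
      rw [Matrix.sum_apply]
      simp only [Matrix.single_apply, Matrix.one_apply]
      by_cases hab : a = b
      · subst hab
        simp
      · rw [if_neg hab]
        apply Finset.sum_eq_zero
        intro p _
        rw [if_neg]
        rintro ⟨h1, h2⟩
        exact hab (h1.symm.trans h2)
    rw [h3, map_smul, map_one, Matrix.smul_mul, one_mul]
  rw [Phi_apply]
  have h4 : lam u = ∑ i, ∑ j, lam (Matrix.single i j 1) * u i j := by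
    conv_lhs => rw [Matrix.matrix_eq_sum_single u]
    rw [map_sum]
    refine Finset.sum_congr rfl fun i _ => ?_
    rw [map_sum]
    refine Finset.sum_congr rfl fun j _ => ?_
    have : Matrix.single i j (u i j) = u i j • Matrix.single i j (1 : F) := by
      rw [Matrix.smul_single, smul_eq_mul, mul_one]
    rw [this, map_smul, smul_eq_mul, mul_comm]
  rw [h4, Finset.sum_smul]
  refine Finset.sum_congr rfl fun i _ => ?_
  rw [Finset.sum_smul]
  refine Finset.sum_congr rfl fun j _ => ?_
  rw [h1, smul_smul]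

theorem sl_mul_eq_zero {k : Fin t} {u : Matrix (Fin m) (Fin m) F} {R : Matrix ι ι F}
    (hR : ∀ w, R * sl e P k w = sl e P k w * R) (h : sl e P k u * R = 0) (hR0 : R ≠ 0) : u = 0 := by
  ext i j
  have h1 := Phi_sl k (Matrix.entryLinearMap F F i j) u hR
  rw [h, map_zero] at h1
  exact (smul_eq_zero.1 h1.symm).resolve_right hR0

theorem exists_lam {u v : Matrix (Fin m) (Fin m) F} (h : ∀ a : F, v ≠ a • u) :
    ∃ lam : Matrix (Fin m) (Fin m) F →ₗ[F] F, lam u = 0 ∧ lam v ≠ 0 := by
  have h1 : v ∉ Submodule.span F {u} := by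
    intro hv
    obtain ⟨a, ha⟩ := Submodule.mem_span_singleton.1 hv
    exact h a ha.symm
  obtain ⟨f, hf1, hf2⟩ := Submodule.exists_le_ker_of_notMem h1
  exact ⟨f, hf2 (Submodule.mem_span_singleton_self u), hf1⟩

/-! ### the elements `N` -/

/-- a pure tensor of ones and of at least two matrices of square zero -/
structure PN (u : Fin t → Matrix (Fin m) (Fin m) F) : Prop where
  sq : ∀ k, u k ≠ 1 → u k * u k = 0
  ne : ∀ k, u k ≠ 0
  two : ∃ k l, k ≠ l ∧ u k ≠ 1 ∧ u l ≠ 1

variable {u : Fin t → Matrix (Fin m) (Fin m) F}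

theorem PN.other (hu : PN u) (k : Fin t) : ∃ l, l ≠ k ∧ u l ≠ 1 := by
  obtain ⟨a, b, hab, ha, hb⟩ := hu.two
  by_cases h : a = k
  · exact ⟨b, by rw [← h]; exact Ne.symm hab, hb⟩
  · exact ⟨a, h, ha⟩

theorem PN.one_ne (hu : PN u) : (1 : Matrix (Fin m) (Fin m) F) ≠ 0 := by
  obtain ⟨k, -, -, -, -⟩ := hu.two
  intro h
  apply hu.ne k
  rw [← mul_one (u k), h, mul_zero]

theorem PN.nonSc (hu : PN u) {k : Fin t} (hk : u k ≠ 1) : NonSc (u k) := by
  intro c hc
  have h1 := hu.sq k hk
  rw [hc, Matrix.smul_mul, one_mul, smul_smul] at h1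
  have h2 : c = 0 := mul_self_eq_zero.1 ((smul_eq_zero.1 h1).resolve_right hu.one_ne)
  apply hu.ne k
  rw [hc, h2, zero_smul]

theorem PN.sqN (hu : PN u) : ptH e P u * ptH e P u = 0 := by
  obtain ⟨k, -, -, hk, -⟩ := hu.two
  rw [← map_mul]
  exact ptH_zero (k := k) (hu.sq k hk)

theorem PN.neN (hu : PN u) : ptH e P u ≠ 0 := ptH_ne_zero hu.ne

theorem PN.sqR (hu : PN u) (k : Fin t) :
    ptH e P (Function.update u k 1) * ptH e P (Function.update u k 1) = 0 := by
  obtain ⟨l, hl, hl1⟩ := hu.other k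
  rw [← map_mul]
  apply ptH_zero (k := l)
  rw [Pi.mul_apply, Function.update_of_ne hl]
  exact hu.sq l hl1

theorem PN.neR (hu : PN u) (k : Fin t) : ptH e P (Function.update u k 1) ≠ 0 := by
  apply ptH_ne_zero
  intro j
  by_cases h : j = k
  · subst h
    rw [Function.update_self]
    exact hu.one_ne
  · rw [Function.update_of_ne h]
    exact hu.ne j

theorem PN.cjm (hu : PN u) (π : Equiv.Perm (Fin t)) (a : Fin t → GL (Fin m) F) :
    PN (fun j => cjm (a (π.symm j)) (u (π.symm j))) where
  sq k hk := by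
    rw [← cjm_mul, hu.sq, cjm_zero]
    intro h
    apply hk
    rw [h, cjm_one]
  ne k := cjm_ne_zero _ (hu.ne _)
  two := by
    obtain ⟨k, l, hkl, hk, hl⟩ := hu.two
    refine ⟨π k, π l, fun h => hkl (π.injective h), ?_, ?_⟩ <;> rw [Equiv.symm_apply_apply]
    · exact cjm_ne_one _ hk
    · exact cjm_ne_one _ hl

theorem PN.comR (k : Fin t) (w : Matrix (Fin m) (Fin m) F) :
    ptH e P (Function.update u k 1) * sl e P k w = sl e P k w * ptH e P (Function.update u k 1) :=
  ptH_comm (by rw [Function.update_self]) w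

theorem lemA (hu : PN u) {k l : Fin t} (hkl : k ≠ l) {w w' : Matrix (Fin m) (Fin m) F}
    (h : sl e P k w * (1 + ptH e P u) = (1 + ptH e P u) * sl e P l w') : ¬ NonSc w := by
  intro hw
  obtain ⟨lam, h1, h2⟩ := exists_lam (u := 1) (v := w) hw
  set R := ptH e P (Function.update u k 1) with hR
  have hRc : ∀ z, R * sl e P k z = sl e P k z * R := PN.comR k
  have hRR : R * R = 0 := hu.sqR k
  have hR0 : R ≠ 0 := hu.neR k
  have hN : ptH e P u = sl e P k (u k) * R := ptH_split u k
  have hl : ∀ z, sl e P l w' * sl e P k z = sl e P k z * sl e P l w' := fun z => ((ts_sl e P hkl).comm z w').symm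
  have e1 : sl e P k w * (1 + ptH e P u) = sl e P k w * 1 + sl e P k (w * u k) * R := by
    rw [hN, mul_add, map_mul, mul_assoc]
  have e2 : (1 + ptH e P u) * sl e P l w' = sl e P k 1 * sl e P l w' + sl e P k (u k) * (R * sl e P l w') := by
    rw [hN, add_mul, map_one, mul_assoc]
  rw [e1, e2] at h
  have h3 := congrArg (Phi e P k lam) h
  rw [map_add, map_add, Phi_sl k lam w (R := 1) (fun z => by rw [one_mul, mul_one]), Phi_sl k lam (w * u k) hRc,
    Phi_sl k lam 1 hl, Phi_sl k lam (u k) (R := R * sl e P l w') (fun z => by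
      rw [mul_assoc, hl, ← mul_assoc, hRc, mul_assoc]), h1, zero_smul, zero_add] at h3
  have h4 := congrArg (fun y => R * y) h3
  simp only [mul_add, Matrix.mul_smul, mul_one, hRR, smul_zero, add_zero, ← mul_assoc, zero_mul] at h4
  rcases smul_eq_zero.1 h4 with h5 | h5
  · exact h2 h5
  · exact hR0 h5

theorem lemB (hu : PN u) {k : Fin t} {w w' : Matrix (Fin m) (Fin m) F}
    (h : sl e P k w * (1 + ptH e P u) = (1 + ptH e P u) * sl e P k w') : w = w' ∧ w * u k = u k * w' := by
  set R := ptH e P (Function.update u k 1) with hR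
  have hRc : ∀ z, R * sl e P k z = sl e P k z * R := PN.comR k
  have hRR : R * R = 0 := hu.sqR k
  have hR0 : R ≠ 0 := hu.neR k
  have hN : ptH e P u = sl e P k (u k) * R := ptH_split u k
  have e1 : sl e P k w * (1 + ptH e P u) = sl e P k w + sl e P k (w * u k) * R := by
    rw [hN, mul_add, map_mul, mul_assoc, mul_one]
  have e2 : (1 + ptH e P u) * sl e P k w' = sl e P k w' + sl e P k (u k * w') * R := by
    rw [hN, add_mul, one_mul, mul_assoc, hRc, map_mul, mul_assoc]
  rw [e1, e2] at h
  have e3 : sl e P k (w - w') + sl e P k (w * u k - u k * w') * R = 0 := by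
    rw [map_sub (sl e P k) w w', map_sub (sl e P k) (w * u k), sub_mul]
    have := sub_eq_zero.2 h
    rw [← this]
    abel
  have e4 : sl e P k (w - w') * R = 0 := by
    have := congrArg (fun y => y * R) e3
    simpa only [add_mul, mul_assoc, hRR, mul_zero, add_zero, zero_mul] using this
  have e5 := sl_mul_eq_zero hRc e4 hR0
  rw [e5, map_zero, zero_add] at e3
  exact ⟨sub_eq_zero.1 e5, sub_eq_zero.1 (sl_mul_eq_zero hRc e3 hR0)⟩

set_option maxHeartbeats 1000000 in
/-- **the elements of `M ∩ M^x`** -/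
theorem root_types (hu : PN u) {x g : GL ι F} (hx : (x : Matrix ι ι F) = 1 + ptH e P u)
    (hg : g ∈ tensorWreathSubgroup m t e P) (hgx : x⁻¹ * g * x ∈ tensorWreathSubgroup m t e P) :
    Cfsg.Agent.H487.EP.cjm g (ptH e P u) = ptH e P u := by
  obtain ⟨π, a, hπ⟩ := wreath_acts hg
  have hY : x⁻¹ * g * x * g⁻¹ ∈ tensorWreathSubgroup m t e P := mul_mem hgx (inv_mem hg)
  set Y := x⁻¹ * g * x * g⁻¹ with hYdef
  obtain ⟨ρ, c, hρ⟩ := wreath_acts hY
  set v : Fin t → Matrix (Fin m) (Fin m) F := fun j => Cfsg.Agent.H487.EP.cjm (a (π.symm j)) (u (π.symm j)) with hvdef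
  have hv : PN v := hu.cjm π a
  have hv1 : ∀ j, v j = 1 ↔ u (π.symm j) = 1 := by
    intro j
    constructor
    · intro h
      by_contra hc
      exact cjm_ne_one _ hc h
    · intro h
      rw [hvdef]
      simp only [h, cjm_one]
  set X : Matrix ι ι F := Cfsg.Agent.H487.EP.cjm g (x : Matrix ι ι F) with hXdef
  have hXv : X = 1 + ptH e P v := by
    rw [hXdef, hx, cjm_add, cjm_one, cjm_ptH hπ]
  have hxY : (x : Matrix ι ι F) * (Y : Matrix ι ι F) = X := by
    rw [← Units.val_mul, hYdef, show x * (x⁻¹ * g * x * g⁻¹) = g * x * g⁻¹ by group]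
    rfl
  have hL : ∀ (k : Fin t) (w : Matrix (Fin m) (Fin m) F), X * sl e P k w = sl e P k w * X →
      sl e P k w * (1 + ptH e P u) = (1 + ptH e P u) * sl e P (ρ k) (Cfsg.Agent.H487.EP.cjm (c k) w) := by
    intro k w hw
    have h1 := comm_of_cjm (hρ k w)
    rw [← hxY] at hw
    have h2 : (sl e P k w * (x : Matrix ι ι F)) * (Y : Matrix ι ι F) =
        ((x : Matrix ι ι F) * sl e P (ρ k) (Cfsg.Agent.H487.EP.cjm (c k) w)) * (Y : Matrix ι ι F) := by
      rw [mul_assoc, ← hw, mul_assoc, h1, mul_assoc]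
    have := congrArg (fun y => y * ((Y⁻¹ : GL ι F) : Matrix ι ι F)) h2
    rw [← hx]
    simpa only [mul_assoc, Units.mul_inv, mul_one] using this
  -- the slots where `X` is trivial
  have hXc : ∀ k, v k = 1 → ∀ w, X * sl e P k w = sl e P k w * X := by
    intro k hk w
    rw [hXv, add_mul, mul_add, one_mul, mul_one, ptH_comm hk]
  -- step 1
  have s1 : ∀ k, u k ≠ 1 → v k ≠ 1 := by
    intro k hk hvk
    by_cases hρk : ρ k = k
    · obtain ⟨w, hw⟩ := (hu.nonSc hk).exists_not_comm
      have h1 := hL k w (hXc k hvk w)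
      rw [hρk] at h1
      obtain ⟨h2, h3⟩ := lemB hu h1
      rw [← h2] at h3
      exact hw h3
    · exact lemA hu (Ne.symm hρk) (hL k (u k) (hXc k hvk _)) (hu.nonSc hk)
  have s1' : ∀ k, v k ≠ 1 → u k ≠ 1 := by
    classical
    have h1 : (Finset.univ.filter fun k => u k ≠ 1) ⊆ (Finset.univ.filter fun k => v k ≠ 1) := by
      intro k hk
      rw [Finset.mem_filter] at hk ⊢
      exact ⟨hk.1, s1 k hk.2⟩
    have h2 : (Finset.univ.filter fun k => v k ≠ 1) = (Finset.univ.filter fun k => u k ≠ 1).map π.toEmbedding := by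
      ext k
      rw [Finset.mem_map_equiv, Finset.mem_filter, Finset.mem_filter, ne_eq, hv1]
      simp
    have h3 : (Finset.univ.filter fun k => u k ≠ 1) = (Finset.univ.filter fun k => v k ≠ 1) := by
      apply Finset.eq_of_subset_of_card_le h1
      rw [h2, Finset.card_map]
    intro k hk
    have h4 : k ∈ (Finset.univ.filter fun k => v k ≠ 1) := Finset.mem_filter.2 ⟨Finset.mem_univ _, hk⟩
    rw [← h3] at h4
    exact (Finset.mem_filter.1 h4).2
  -- step 2
  have hone := hu.one_ne
  obtain ⟨k0, -, -, hk0, -⟩ := hu.two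
  have s2 : ∀ k, ρ k = k := by
    intro k
    by_contra hρk
    by_cases hk : u k = 1
    · have hvk : v k = 1 := by
        by_contra hc
        exact s1' k hc hk
      have h1 := hL k (u k0) (hXc k hvk _)
      have h2 : sl e P k (u k0) * (1 + ptH e P u) = (1 + ptH e P u) * sl e P k (u k0) := by
        rw [add_mul, mul_add, one_mul, mul_one, ptH_comm hk]
      rw [h2, ← hx] at h1
      have h3 : sl e P k (u k0) = sl e P (ρ k) (Cfsg.Agent.H487.EP.cjm (c k) (u k0)) := by
        have := congrArg (fun y => ((x⁻¹ : GL ι F) : Matrix ι ι F) * y) h1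
        simpa only [← mul_assoc, Units.inv_mul, one_mul] using this
      obtain ⟨z, hz⟩ := sl_scalar (Ne.symm hρk) hone h3
      exact hu.nonSc hk0 z hz
    · have hvk := s1 k hk
      refine lemA hu (Ne.symm hρk) (hL k (v k) ?_) (hv.nonSc hvk)
      rw [hXv, ptH_split v k, add_mul, mul_add, one_mul, mul_one, mul_assoc, PN.comR (u := v) k]
  have s2' : ∀ k, u k = 1 → ∀ w, sl e P k w = sl e P k (Cfsg.Agent.H487.EP.cjm (c k) w) := by
    intro k hk w
    have hvk : v k = 1 := by
      by_contra hc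
      exact s1' k hc hk
    have h1 := hL k w (hXc k hvk _)
    have h2 : sl e P k w * (1 + ptH e P u) = (1 + ptH e P u) * sl e P k w := by
      rw [add_mul, mul_add, one_mul, mul_one, ptH_comm hk]
    rw [h2, ← hx, s2] at h1
    have := congrArg (fun y => ((x⁻¹ : GL ι F) : Matrix ι ι F) * y) h1
    simpa only [← mul_assoc, Units.inv_mul, one_mul] using this
  -- step 3
  have s3 : ∀ k, u k ≠ 1 → ¬ NonSc (c k : Matrix (Fin m) (Fin m) F) := by
    intro k hk hc
    have hc1 : ∀ z : F, (1 : Matrix (Fin m) (Fin m) F) ≠ z • (c k : Matrix (Fin m) (Fin m) F) := by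
      intro z hz
      have hz0 : z ≠ 0 := by
        rintro rfl
        rw [zero_smul] at hz
        exact hone hz
      apply hc z⁻¹
      rw [hz, smul_smul, inv_mul_cancel₀ hz0, one_smul]
    obtain ⟨lam, h1, h2⟩ := exists_lam hc1
    set R := ptH e P (Function.update u k 1) with hR
    set R1 := ptH e P (Function.update v k 1) with hR1
    have hRc : ∀ z, R * sl e P k z = sl e P k z * R := PN.comR k
    have hRc1 : ∀ z, R1 * sl e P k z = sl e P k z * R1 := PN.comR k
    have hRR : R * R = 0 := hu.sqR k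
    have hRR1 : R1 * R1 = 0 := hv.sqR k
    have hR0 : R ≠ 0 := hu.neR k
    have hN : ptH e P u = sl e P k (u k) * R := ptH_split u k
    have hN1 : ptH e P v = sl e P k (v k) * R1 := ptH_split v k
    have hxi : ((x⁻¹ : GL ι F) : Matrix ι ι F) = 1 - ptH e P u := by
      have h3 : (1 - ptH e P u) * (x : Matrix ι ι F) = 1 := by
        rw [hx, mul_add, sub_mul, sub_mul, one_mul, one_mul, mul_one, hu.sqN]
        abel
      calc ((x⁻¹ : GL ι F) : Matrix ι ι F) = ((1 - ptH e P u) * (x : Matrix ι ι F)) * ((x⁻¹ : GL ι F) : Matrix ι ι F) := by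
            rw [h3, one_mul]
        _ = 1 - ptH e P u := by rw [mul_assoc, Units.mul_inv, mul_one]
    have hYv : (Y : Matrix ι ι F) = (1 - ptH e P u) * (1 + ptH e P v) := by
      rw [← hXv, ← hxY, ← mul_assoc, ← hxi, Units.inv_mul, one_mul]
    have hY2 : (Y : Matrix ι ι F) = sl e P k 1 * 1 - sl e P k (u k) * R + sl e P k (v k) * R1 -
        sl e P k (u k * v k) * (R * R1) := by
      rw [hYv, hN, hN1, map_mul, map_one]
      have h3 : sl e P k (u k) * R * (sl e P k (v k) * R1) = sl e P k (u k) * sl e P k (v k) * (R * R1) := by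
        rw [mul_assoc, ← mul_assoc R, hRc]
        simp only [mul_assoc]
      rw [sub_mul, mul_add, mul_add, h3]
      simp only [one_mul, mul_one]
      abel
    -- `Y = s_k (c_k) Z`
    set Z : Matrix ι ι F := sl e P k (((c k)⁻¹ : GL (Fin m) F) : Matrix (Fin m) (Fin m) F) * (Y : Matrix ι ι F) with hZ
    have hZc : ∀ w, Z * sl e P k w = sl e P k w * Z := by
      intro w
      have h3 := comm_of_cjm (hρ k w)
      rw [s2] at h3
      rw [hZ, mul_assoc, h3, ← mul_assoc, ← mul_assoc, ← map_mul, ← map_mul]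
      congr 2
      rw [Cfsg.Agent.H487.EP.cjm, ← mul_assoc, ← mul_assoc, Units.inv_mul, one_mul]
    have hYZ : (Y : Matrix ι ι F) = sl e P k (c k : Matrix (Fin m) (Fin m) F) * Z := by
      rw [hZ, ← mul_assoc, ← map_mul, Units.mul_inv, map_one, one_mul]
    have h4 := congrArg (Phi e P k lam) (hYZ.symm.trans hY2)
    rw [Phi_sl k lam _ hZc, h1, zero_smul, map_sub, map_add, map_sub,
      Phi_sl k lam 1 (R := 1) (fun z => by rw [one_mul, mul_one]), Phi_sl k lam (u k) hRc, Phi_sl k lam (v k) hRc1,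
      Phi_sl k lam (u k * v k) (R := R * R1) (fun z => by rw [mul_assoc, hRc1, ← mul_assoc, hRc, mul_assoc])] at h4
    have h5 := congrArg (fun y => R * y) h4
    simp only [mul_add, mul_sub, Matrix.mul_smul, mul_one, hRR, smul_zero, sub_zero, mul_zero, ← mul_assoc,
      zero_mul] at h5
    -- `0 = lam 1 • R + lam (v k) • (R * R1)`
    have h6 : R * R1 = 0 := by
      have := congrArg (fun y => y * R1) h5
      simp only [add_mul, Matrix.smul_mul, mul_assoc, hRR1, smul_zero, mul_zero, add_zero, zero_mul] at this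
      exact (smul_eq_zero.1 this.symm).resolve_left h2
    rw [h6, smul_zero, add_zero] at h5
    exact hR0 ((smul_eq_zero.1 h5.symm).resolve_left h2)
  -- `Y` is scalar
  obtain ⟨y, hy⟩ := scalar_of_sl (e := e) (P := P) (Y : Matrix ι ι F) (by
    intro k w
    have h3 := comm_of_cjm (hρ k w)
    rw [s2] at h3
    rw [h3]
    by_cases hk : u k = 1
    · rw [← s2' k hk w]
    · have h4 := s3 k hk
      rw [NonSc] at h4
      push Not at h4
      obtain ⟨z, hz⟩ := h4
      congr 2
      have h5 : (c k : Matrix (Fin m) (Fin m) F) * w = w * (c k : Matrix (Fin m) (Fin m) F) := by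
        rw [hz, Matrix.smul_mul, Matrix.mul_smul, one_mul, mul_one]
      exact cjm_of_comm h5)
  -- `1 + N1 = y (1 + N)`
  rw [hy, Matrix.mul_smul, mul_one, hx, hXv] at hxY
  have hu0 : ptH e P u ≠ 0 := hu.neN
  have h7 : ptH e P v = (y - 1) • (1 : Matrix ι ι F) + y • ptH e P u := by
    rw [sub_smul, one_smul]
    have : y • (1 + ptH e P u) = y • (1 : Matrix ι ι F) + y • ptH e P u := smul_add _ _ _
    rw [this] at hxY
    have h8 : ptH e P v = (y • (1 : Matrix ι ι F) + y • ptH e P u) - 1 := by rw [hxY]; abel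
    rw [h8]; abel
  have h8 : ((y - 1) * (y - 1)) • ptH e P u = 0 := by
    have h9 : ptH e P u * (ptH e P v * ptH e P v) = ((y - 1) * (y - 1)) • ptH e P u := by
      rw [h7]
      simp only [mul_add, add_mul, Matrix.mul_smul, Matrix.smul_mul, mul_one, one_mul, hu.sqN, smul_zero,
        add_zero, smul_smul]
    rw [← h9, hv.sqN, mul_zero]
  have h9 : y - 1 = 0 := mul_self_eq_zero.1 ((smul_eq_zero.1 h8).resolve_right hu0)
  rw [cjm_ptH hπ, h7, h9, zero_smul, zero_add, show y = 1 by linear_combination h9, one_smul]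

variable {Q : Type*} [Group Q] [Finite Q] {A : Subgroup Q} {Γ : Subgroup (MulAut Q)}

/-- **The kill by elements `1 + N`.** -/
theorem kill_root (h : EPT A Γ) {S : Subgroup (GL ι F)} (mo : Model Q S)
    (hA : mo.hat A = tensorWreathSubgroup m t e P ⊓ S) (hu : PN u)
    {x : GL ι F} (hxS : x ∈ S) (hxv : (x : Matrix ι ι F) = 1 + ptH e P u)
    {w : GL ι F} (hwS : w ∈ S) (hwM : w ∈ tensorWreathSubgroup m t e P) {μ : F} (hμ : μ ≠ 1)
    (hw : Cfsg.Agent.H487.EP.cjm w (ptH e P u) = μ • ptH e P u) : False := by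
  set M := tensorWreathSubgroup m t e P with hM
  set N := ptH e P u with hN
  have hN0 : N ≠ 0 := hu.neN
  have hμ0 : μ ≠ 0 := by
    rintro rfl
    rw [zero_smul] at hw
    exact cjm_ne_zero w hN0 hw
  -- elements commuting with `N` lie in `M^x`
  have hcom : ∀ g : GL ι F, g ∈ M → Cfsg.Agent.H487.EP.cjm g N = N → x⁻¹ * g * x = g := by
    intro g _ hgN
    have h1 : g * x = x * g := by
      apply Units.ext
      rw [Units.val_mul, Units.val_mul, hxv, mul_add, add_mul, comm_of_cjm hgN, one_mul, mul_one]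
    rw [mul_assoc, h1, ← mul_assoc, inv_mul_cancel, one_mul]
  have hwno : ¬ x⁻¹ * w * x ∈ M := by
    intro hcon
    have h1 := root_types hu hxv hwM hcon
    rw [← hN, hw] at h1
    apply hμ
    have h2 : (μ - 1) • N = 0 := by rw [sub_smul, one_smul, h1, sub_self]
    have := (smul_eq_zero.1 h2).resolve_right hN0
    linear_combination this
  have hxM : x ∉ M := fun hx => hwno (M.mul_mem (M.mul_mem (M.inv_mem hx) hwM) hx)
  have hwA : w ∈ mo.hat A := by rw [hA]; exact ⟨hwM, hwS⟩
  have key : w ∈ cj x (mo.hat A) := by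
    refine Cfsg.Agent.H458.EP.kill_norm h mo hxS (fun hx => hxM (by rw [hA] at hx; exact (mem_inf.1 hx).1)) hwA ?_
    intro g hg hgx
    rw [hA] at hg hgx ⊢
    rw [mem_cj] at hgx ⊢
    obtain ⟨hgM, hgS⟩ := mem_inf.1 hg
    refine mem_inf.2 ⟨?_, S.mul_mem (S.mul_mem (S.inv_mem hxS) (S.mul_mem (S.mul_mem hwS hgS) (S.inv_mem hwS))) hxS⟩
    have hgN : Cfsg.Agent.H487.EP.cjm g N = N := root_types hu hxv hgM (mem_inf.1 hgx).1
    have hg'M : w * g * w⁻¹ ∈ M := M.mul_mem (M.mul_mem hwM hgM) (M.inv_mem hwM)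
    have hwi : Cfsg.Agent.H487.EP.cjm w⁻¹ N = μ⁻¹ • N := by
      have h1 : N = Cfsg.Agent.H487.EP.cjm w (μ⁻¹ • N) := by
        rw [cjm_smul, hw, smul_smul, inv_mul_cancel₀ hμ0, one_smul]
      conv_lhs => rw [h1]
      rw [cjm_inv_self]
    have hg'N : Cfsg.Agent.H487.EP.cjm (w * g * w⁻¹) N = N := by
      rw [← cjm_cjm, ← cjm_cjm, hwi, cjm_smul, hgN, cjm_smul, hw, smul_smul, inv_mul_cancel₀ hμ0, one_smul]
    rw [hcom _ hg'M hg'N]
    exact hg'M
  rw [mem_cj, hA] at key
  exact hwno (mem_inf.1 key).1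

end Cfsg.Agent.H598.EP
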