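import Cfsg.Agent.H59.EP.UBGen
import Cfsg.Agent.H173.EP.LineBound

/-!
# S3499-VII: the number of two-point stabilisers, rank version (helper598)

UB2 of helper59 with the galois numbers replaced by a bound `k` for the rank of the elementary abelian `s`-subgroups,
`s ≠ p`, and a set `𝓟` containing the two-point stabilisers of `p`-type:

`r ≤ |𝓟| + |A| ^ k + |A| ^ 2 / 60 + |A| ^ 3 / 12744000`.

* `ncard_le_rank` : the counting theorem in a finite group `B`;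
* `EPT.ncard_le_rank`, `EPT.index_le_rank`, `EPT.card_le_rank` (`|Q| ≤ |A| ^ (k + 2)`).
-/

set_option autoImplicit false

namespace Cfsg.Agent.H598.EP

open Subgroup Cfsg.Agent.H284 Cfsg.Agent.H59.EP
open scoped commutatorElement

universe u

section count

variable {B : Type u} [Group B]

/-- an elementary abelian group of order at most `s ^ k` is generated by `k` elements -/
theorem exists_gen [Finite B] {s k : ℕ} (hs : s.Prime) {X : Subgroup B} (hX : ElAb s X) (hc : Nat.card X ≤ s ^ k) :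
    ∃ f : Fin k → B, closure (Set.range f) = X := by
  have hps : IsPGroup s X := by
    rintro ⟨y, hy⟩
    refine ⟨1, Subtype.ext ?_⟩
    rw [pow_one]
    exact hX.exp y hy
  have : Fact s.Prime := ⟨hs⟩
  obtain ⟨j, hj⟩ := IsPGroup.iff_card.1 hps
  rw [hj] at hc
  have hjk : j ≤ k := (Nat.pow_le_pow_iff_right hs.one_lt).1 hc
  have h1 := le_ncard_LL hs hX j
  have h2 : 0 < (LL s X j).ncard := by
    refine lt_of_lt_of_le (Finset.prod_pos fun i hi => ?_) h1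
    rw [hj]
    exact Nat.sub_pos_of_lt (Nat.pow_lt_pow_right hs.one_lt (Finset.mem_range.1 hi))
  obtain ⟨l, hl1, hl2, hl3⟩ := Set.nonempty_of_ncard_ne_zero h2.ne'
  have hcl : closure {y | y ∈ l} = X := by
    refine Subgroup.eq_of_le_of_card_ge ((closure_le _).2 hl3) ?_
    rw [(hl2.elab hs).2, hl1, hj]
  refine ⟨fun i => l.getD i 1, ?_⟩
  rw [← hcl]
  apply le_antisymm
  · rw [closure_le]
    rintro _ ⟨i, rfl⟩
    by_cases hi : (i : ℕ) < l.length
    · show l.getD i 1 ∈ _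
      rw [List.getD_eq_getElem _ _ hi]
      exact subset_closure (List.getElem_mem hi)
    · show l.getD i 1 ∈ _
      rw [List.getD_eq_default _ _ (by omega)]
      exact one_mem _
  · rw [closure_le]
    intro y hy
    obtain ⟨i, hi, rfl⟩ := List.getElem_of_mem hy
    refine subset_closure ⟨⟨i, by omega⟩, ?_⟩
    show l.getD i 1 = _
    rw [List.getD_eq_getElem _ _ hi]

/-- **Counting theorem, rank version.** -/
theorem ncard_le_rank [Finite B] (hg0 : TwoGen.{0}) (hg : TwoGen.{u}) {p k : ℕ} {𝓜 𝓟 : Set (Subgroup B)}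
    (hnt : ∀ M ∈ 𝓜, M ≠ ⊥)
    (hch : ∀ M ∈ 𝓜, ∀ K : Subgroup M, K.Characteristic → K ≠ ⊥ → ∀ b : B,
      (∀ k ∈ K.map M.subtype, b * k * b⁻¹ ∈ K.map M.subtype) → b ∈ M)
    (hp : ∀ M ∈ 𝓜, ∀ X : Subgroup B, ElAb p X → X ≠ ⊥ → X ≤ M → normalizer (X : Set B) = M → M ∈ 𝓟)
    (hr : ∀ s : ℕ, s.Prime → s ≠ p → ∀ X : Subgroup B, ElAb s X → Nat.card X ≤ s ^ k)
    (hX : ∀ X : Subgroup B, (∀ Y : Subgroup X, Y.Characteristic → Y = ⊥ ∨ Y = ⊤) →
      (¬ ∀ a b : X, a * b = b * a) → Nat.card X < 60 ^ 61 ∨ IsSimpleGroup X) :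
    𝓜.ncard ≤ 𝓟.ncard + Nat.card B ^ k + Nat.card B ^ 2 / 60 + Nat.card B ^ 3 / 12744000 := by
  classical
  have key : ∀ M ∈ 𝓜, ∃ X : Subgroup B, normalizer (X : Set B) = M ∧
      ((M ∈ 𝓟) ∨ (∃ f : Fin k → B, closure (Set.range f) = X) ∨
        ((IsSimpleGroup X ∧ ¬ Group.IsSolvable X) ∧ ∃ a b : X, closure ({a, b} : Set X) = ⊤) ∨
        12744000 ≤ {p : X × X × X | closure ({p.1, p.2.1, p.2.2} : Set X) = ⊤}.ncard) := by
    intro M hM
    obtain ⟨X, h1, h2, h3, h4⟩ := exists_key (hnt M hM) (hch M hM)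
    refine ⟨X, h1, ?_⟩
    have hXn : Nontrivial X := (Subgroup.nontrivial_iff_ne_bot X).2 h3
    by_cases hcomm : ∀ a b : X, a * b = b * a
    · obtain ⟨s, hs, hsd, hel⟩ := elab_of_comm h4 hcomm
      have hE : ElAb s X := by
        refine ⟨?_, ?_⟩
        · intro a ha b hb
          exact Subtype.ext_iff.1 (hel.comm ⟨a, ha⟩ (mem_top _) ⟨b, hb⟩ (mem_top _))
        · intro a ha
          exact Subtype.ext_iff.1 (hel.exp ⟨a, ha⟩ (mem_top _))
      by_cases hsp : s = p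
      · subst hsp
        exact Or.inl (hp M hM X hE h3 h2 h1)
      · exact Or.inr (Or.inl (exists_gen hs hE (hr s hs hsp X hE)))
    · rcases hX X h4 hcomm with hlt | hsi
      · rcases char_simple_gen hg0 h4 hlt with ⟨s, hs, hsd, hel⟩ | h | h
        · exact absurd (fun a b => hel.comm a (mem_top _) b (mem_top _)) hcomm
        · exact Or.inr (Or.inr (Or.inl h))
        · exact Or.inr (Or.inr (Or.inr h))
      · refine Or.inr (Or.inr (Or.inl ⟨⟨hsi, fun hsol => hcomm ?_⟩, hg X⟩))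
        have h5 : commutator X < ⊤ := Group.IsSolvable.commutator_lt_top_of_nontrivial X
        rcases hsi.eq_bot_or_eq_top_of_normal (commutator X) inferInstance with h6 | h6
        · intro a b
          have h7 : ⁅a, b⁆ ∈ commutator X := commutator_mem_commutator (mem_top _) (mem_top _)
          rw [h6, mem_bot, commutatorElement_eq_one_iff_mul_comm] at h7
          exact h7
        · exact absurd h6 h5.ne
  choose! f hf1 hf2 using key
  have hinj : Set.InjOn f 𝓜 := by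
    intro M hM N hN e
    rw [← hf1 M hM, ← hf1 N hN, e]
  have hsub : 𝓜 ⊆ 𝓟 ∪ {M | M ∈ 𝓜 ∧ M ∉ 𝓟} := by
    intro M hM
    by_cases h : M ∈ 𝓟
    · exact Or.inl h
    · exact Or.inr ⟨hM, h⟩
  have hinj' : Set.InjOn f {M | M ∈ 𝓜 ∧ M ∉ 𝓟} := hinj.mono fun M hM => hM.1
  refine (Set.ncard_le_ncard hsub (Set.toFinite _)).trans ((Set.ncard_union_le _ _).trans ?_)
  rw [← hinj'.ncard_image]
  have hsub2 : f '' {M | M ∈ 𝓜 ∧ M ∉ 𝓟} ⊆ ((Set.range fun g : Fin k → B => closure (Set.range g)) ∪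
      {X : Subgroup B | (IsSimpleGroup X ∧ ¬ Group.IsSolvable X) ∧ ∃ a b : X, closure ({a, b} : Set X) = ⊤}) ∪
      {X : Subgroup B | 12744000 ≤ {p : X × X × X | closure ({p.1, p.2.1, p.2.2} : Set X) = ⊤}.ncard} := by
    rintro _ ⟨M, ⟨hM, hMP⟩, rfl⟩
    rcases hf2 M hM with h | ⟨g, h⟩ | h | h
    · exact absurd h hMP
    · exact Or.inl (Or.inl ⟨g, h⟩)
    · exact Or.inl (Or.inr h)
    · exact Or.inr h
  set S1 : Set (Subgroup B) := Set.range fun g : Fin k → B => closure (Set.range g) with hS1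
  set S2 : Set (Subgroup B) := {X : Subgroup B | (IsSimpleGroup X ∧ ¬ Group.IsSolvable X) ∧
    ∃ a b : X, closure ({a, b} : Set X) = ⊤} with hS2
  set S3 : Set (Subgroup B) := {X : Subgroup B | 12744000 ≤
    {p : X × X × X | closure ({p.1, p.2.1, p.2.2} : Set X) = ⊤}.ncard} with hS3
  have h1 : S1.ncard ≤ Nat.card B ^ k := by
    have h1 : S1.ncard ≤ Nat.card (Fin k → B) := by
      rw [hS1, ← Set.image_univ]
      exact (Set.ncard_image_le (Set.toFinite _)).trans (le_of_eq (Set.ncard_univ _))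
    refine h1.trans (le_of_eq ?_)
    rw [Nat.card_pi, Finset.prod_const, Finset.card_univ, Fintype.card_fin]
  have h2 : S2.ncard ≤ Nat.card B ^ 2 / 60 := ncard_simple_le (fun X hX => hX.1) (fun X hX => hX.2)
  have h3 : S3.ncard ≤ Nat.card B ^ 3 / 12744000 := ncard_triple_le (by norm_num) (fun X hX => hX)
  have h4 := Set.ncard_le_ncard hsub2 (Set.toFinite _)
  have h5 := Set.ncard_union_le (S1 ∪ S2) S3
  have h6 := Set.ncard_union_le S1 S2
  omega

end count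

section ept

variable {Q : Type u} [Group Q] [Finite Q] {A : Subgroup Q} {Γ : Subgroup (MulAut Q)}

/-- **UB2, rank version**: the number of two-point stabilisers -/
theorem EPT.ncard_le_rank (h : EPT A Γ) (hg0 : TwoGen.{0}) (hg : TwoGen.{u}) {p k : ℕ} {𝓟 : Set (Subgroup Q)}
    (hp : ∀ x, x ∉ A → ∀ X : Subgroup Q, ElAb p X → X ≠ ⊥ → X ≤ A ⊓ cj x A →
      (∀ a ∈ A, (∀ b ∈ X, a * b * a⁻¹ ∈ X) → a ∈ cj x A) → A ⊓ cj x A ∈ 𝓟)
    (hr : ∀ s : ℕ, s.Prime → s ≠ p → ∀ X : Subgroup Q, X ≤ A → ElAb s X → Nat.card X ≤ s ^ k)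
    (hX : ∀ X : Subgroup Q, X ≤ A → (∀ Y : Subgroup X, Y.Characteristic → Y = ⊥ ∨ Y = ⊤) →
      (¬ ∀ a b : X, a * b = b * a) → Nat.card X < 60 ^ 61 ∨ IsSimpleGroup X) :
    {M : Subgroup Q | ∃ x, x ∉ A ∧ M = A ⊓ cj x A}.ncard ≤
      𝓟.ncard + Nat.card A ^ k + Nat.card A ^ 2 / 60 + Nat.card A ^ 3 / 12744000 := by
  classical
  set 𝓜 : Set (Subgroup A) := {M | ∃ x, x ∉ A ∧ M = (A ⊓ cj x A).subgroupOf A} with h𝓜
  set 𝓟' : Set (Subgroup A) := {M | M.map A.subtype ∈ 𝓟} with h𝓟'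
  have hinf : ∀ x, (A ⊓ cj x A) ⊓ A = A ⊓ cj x A := fun x => inf_eq_left.2 inf_le_left
  have h1 : {M : Subgroup Q | ∃ x, x ∉ A ∧ M = A ⊓ cj x A}.ncard ≤ 𝓜.ncard := by
    refine Set.ncard_le_ncard_of_injOn (fun M => M.subgroupOf A) ?_ ?_ (Set.toFinite _)
    · rintro _ ⟨x, hx, rfl⟩
      exact ⟨x, hx, rfl⟩
    · rintro _ ⟨x, _, rfl⟩ _ ⟨y, _, rfl⟩ e
      have e1 := congrArg (Subgroup.map A.subtype) e
      simp only [Subgroup.subgroupOf_map_subtype] at e1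
      rwa [hinf, hinf] at e1
  have h2 : 𝓟'.ncard ≤ 𝓟.ncard :=
    Set.ncard_le_ncard_of_injOn (fun M => M.map A.subtype) (fun M hM => hM)
      (fun M _ N _ e => Subgroup.map_injective A.subtype_injective e) (Set.toFinite _)
  -- transport of subgroups
  have hEl : ∀ (s : ℕ) (X : Subgroup A), ElAb s X → ElAb s (X.map A.subtype) := by
    intro s X hX
    refine ⟨?_, ?_⟩
    · rintro _ ⟨a, ha, rfl⟩ _ ⟨b, hb, rfl⟩
      rw [← map_mul, ← map_mul, hX.comm a ha b hb]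
    · rintro _ ⟨a, ha, rfl⟩
      rw [← map_pow, hX.exp a ha, map_one]
  have hcard : ∀ X : Subgroup A, Nat.card (X.map A.subtype) = Nat.card X := fun X =>
    Subgroup.card_map_of_injective A.subtype_injective
  refine h1.trans ((Cfsg.Agent.H598.EP.ncard_le_rank hg0 hg (p := p) (k := k) (𝓟 := 𝓟') ?_ ?_ ?_ ?_ ?_).trans ?_)
  · rintro _ ⟨x, hx, rfl⟩ e
    apply h.M0 x hx
    rw [Subgroup.subgroupOf_eq_bot] at e
    exact e.eq_bot_of_le inf_le_left
  · rintro _ ⟨x, hx, rfl⟩ K hK hne b hb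
    set E : (A ⊓ cj x A).subgroupOf A ≃* (A ⊓ cj x A : Subgroup Q) :=
      Subgroup.subgroupOfEquivOfLe (inf_le_left : A ⊓ cj x A ≤ A) with hE
    have hch := char_map E hK
    have hn := h.norm_char hx (K.map E.toMonoidHom) (hK := hch) (by
      intro e
      rw [Subgroup.map_eq_bot_iff_of_injective _ E.injective] at e
      exact hne e) (a := (b : Q)) b.2 (by
      rintro _ ⟨_, ⟨k, hk, rfl⟩, rfl⟩
      obtain ⟨k', hk', e'⟩ := hb _ ⟨k, hk, rfl⟩
      refine ⟨_, ⟨k', hk', rfl⟩, ?_⟩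
      have e2 := congrArg (Subtype.val) e'
      exact e2)
    exact ⟨b.2, hn⟩
  · rintro _ ⟨x, hx, rfl⟩ X hXe hXne hXM hXn
    show ((A ⊓ cj x A).subgroupOf A).map A.subtype ∈ 𝓟
    rw [Subgroup.subgroupOf_map_subtype, hinf]
    refine hp x hx (X.map A.subtype) (hEl p X hXe) ?_ ?_ ?_
    · intro e
      rw [Subgroup.map_eq_bot_iff_of_injective _ A.subtype_injective] at e
      exact hXne e
    · rintro _ ⟨a, ha, rfl⟩
      exact hXM ha
    · intro a ha hab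
      have h3 : (⟨a, ha⟩ : A) ∈ normalizer (X : Set A) := by
        have key : ∀ b ∈ X, (⟨a, ha⟩ : A) * b * (⟨a, ha⟩ : A)⁻¹ ∈ X := by
          intro b hb
          obtain ⟨c, hc, e⟩ := hab _ ⟨b, hb, rfl⟩
          have : c = (⟨a, ha⟩ : A) * b * (⟨a, ha⟩ : A)⁻¹ := Subtype.ext e
          rwa [← this]
        exact mem_normalizer_fintype key
      rw [hXn] at h3
      exact h3.2
  · intro s hs hsp X hXe
    rw [← hcard X]
    refine hr s hs hsp _ ?_ (hEl s X hXe)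
    rintro _ ⟨a, _, rfl⟩
    exact a.2
  · intro X hXc hXn
    set e : X ≃* X.map A.subtype := X.equivMapOfInjective _ A.subtype_injective with he
    have h3 := hX (X.map A.subtype) (by
      rintro _ ⟨a, _, rfl⟩
      exact a.2) (by
      intro Y hY
      have hY' := char_map e.symm hY
      rcases hXc _ hY' with h4 | h4
      · left
        rwa [Subgroup.map_eq_bot_iff_of_injective _ e.symm.injective] at h4
      · right
        rw [Subgroup.eq_top_iff']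
        intro y
        have h5 : e.symm y ∈ Y.map e.symm.toMonoidHom := by rw [h4]; exact mem_top _
        obtain ⟨z, hz, e1⟩ := h5
        have : z = y := e.symm.injective e1
        rwa [← this]) (by
      intro h4
      apply hXn
      intro a b
      apply e.injective
      rw [map_mul, map_mul, h4])
    rcases h3 with h4 | h4
    · left
      rwa [hcard] at h4
    · right
      exact e.isSimpleGroup
  · exact Nat.add_le_add_right (Nat.add_le_add_right (Nat.add_le_add_right h2 _) _) _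

/-- **UB1 + UB2, rank version**: the index -/
theorem EPT.index_le_rank (hs : IsSimpleGroup Q) (h : EPT A Γ) (hg0 : TwoGen.{0}) (hg : TwoGen.{u})
    (hab : ∀ K : Subgroup Q, K ≤ A → (∀ a ∈ A, ∀ k ∈ K, a * k * a⁻¹ ∈ K) → (∀ a ∈ K, ∀ b ∈ K, a * b = b * a) → K = ⊥)
    {p k : ℕ} {𝓟 : Set (Subgroup Q)}
    (hp : ∀ x, x ∉ A → ∀ X : Subgroup Q, ElAb p X → X ≠ ⊥ → X ≤ A ⊓ cj x A →
      (∀ a ∈ A, (∀ b ∈ X, a * b * a⁻¹ ∈ X) → a ∈ cj x A) → A ⊓ cj x A ∈ 𝓟)
    (hr : ∀ s : ℕ, s.Prime → s ≠ p → ∀ X : Subgroup Q, X ≤ A → ElAb s X → Nat.card X ≤ s ^ k)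
    (hX : ∀ X : Subgroup Q, X ≤ A → (∀ Y : Subgroup X, Y.Characteristic → Y = ⊥ ∨ Y = ⊤) →
      (¬ ∀ a b : X, a * b = b * a) → Nat.card X < 60 ^ 61 ∨ IsSimpleGroup X) :
    A.index ≤ 1 + (𝓟.ncard + Nat.card A ^ k + Nat.card A ^ 2 / 60 + Nat.card A ^ 3 / 12744000) *
      (2 * (Nat.card A / 6)) :=
  index_le_of (EPT.ncard_le_rank h hg0 hg hp hr hX)
    (Cfsg.Agent.H173.EP.ub1 hs h (by norm_num) fun _ hx => EPT.six_le h hab hx) le_rfl

/-- **UB1 + UB2, rank version**: `|Q| ≤ |A| ^ (k + 2)` if there are at most `|A|` stabilisers of `p`-type, `k ≥ 3`. -/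
theorem EPT.card_le_rank (hs : IsSimpleGroup Q) (h : EPT A Γ) (hg0 : TwoGen.{0}) (hg : TwoGen.{u})
    (hab : ∀ K : Subgroup Q, K ≤ A → (∀ a ∈ A, ∀ k ∈ K, a * k * a⁻¹ ∈ K) → (∀ a ∈ K, ∀ b ∈ K, a * b = b * a) → K = ⊥)
    {p k : ℕ} (hk : 3 ≤ k) (h60 : 60 ≤ Nat.card A) {𝓟 : Set (Subgroup Q)} (hP : 𝓟.ncard ≤ Nat.card A)
    (hp : ∀ x, x ∉ A → ∀ X : Subgroup Q, ElAb p X → X ≠ ⊥ → X ≤ A ⊓ cj x A →
      (∀ a ∈ A, (∀ b ∈ X, a * b * a⁻¹ ∈ X) → a ∈ cj x A) → A ⊓ cj x A ∈ 𝓟)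
    (hr : ∀ s : ℕ, s.Prime → s ≠ p → ∀ X : Subgroup Q, X ≤ A → ElAb s X → Nat.card X ≤ s ^ k)
    (hX : ∀ X : Subgroup Q, X ≤ A → (∀ Y : Subgroup X, Y.Characteristic → Y = ⊥ ∨ Y = ⊤) →
      (¬ ∀ a b : X, a * b = b * a) → Nat.card X < 60 ^ 61 ∨ IsSimpleGroup X) :
    Nat.card Q ≤ Nat.card A ^ (k + 2) := by
  have h1 := EPT.index_le_rank hs h hg0 hg hab hp hr hX
  set a := Nat.card A with ha
  have h2 : a ^ 3 ≤ a ^ k := Nat.pow_le_pow_right (by omega) hk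
  have h3 : 60 * a ^ 2 ≤ a ^ 3 := by
    calc 60 * a ^ 2 ≤ a * a ^ 2 := Nat.mul_le_mul_right _ h60
      _ = a ^ 3 := by ring
  have h4 : 60 * a ≤ a ^ 2 := by
    calc 60 * a ≤ a * a := Nat.mul_le_mul_right _ h60
      _ = a ^ 2 := by ring
  have h5 : 𝓟.ncard + a ^ k + a ^ 2 / 60 + a ^ 3 / 12744000 ≤ 2 * a ^ k := by omega
  have h6 : (𝓟.ncard + a ^ k + a ^ 2 / 60 + a ^ 3 / 12744000) * (2 * (a / 6)) ≤ 2 * a ^ k * (2 * (a / 6)) :=
    Nat.mul_le_mul_right _ h5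
  have h7 : 3 * (2 * a ^ k * (2 * (a / 6))) ≤ 2 * a ^ k * a := by
    have : 3 * (2 * (a / 6)) ≤ a := by omega
    calc 3 * (2 * a ^ k * (2 * (a / 6))) = 2 * a ^ k * (3 * (2 * (a / 6))) := by ring
      _ ≤ _ := Nat.mul_le_mul_left _ this
  have h8 : 60 ≤ a ^ k * a := by
    calc 60 ≤ a := h60
      _ = 1 * a := (one_mul _).symm
      _ ≤ a ^ k * a := Nat.mul_le_mul_right _ (Nat.one_le_pow _ _ (by omega))
  have h9 : A.index ≤ a ^ k * a := by
    have e : 2 * a ^ k * a = 2 * (a ^ k * a) := by ring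
    rw [e] at h7
    omega
  calc Nat.card Q = a * A.index := (Subgroup.card_mul_index A).symm
    _ ≤ a * (a ^ k * a) := Nat.mul_le_mul_left _ h9
    _ = a ^ (k + 2) := by ring

end ept

end Cfsg.Agent.H598.EP
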